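import Mathlib
import Cfsg.Agent.Lib.Helper41.SnB.Defs
import Cfsg.Agent.Lib.Helper85.BB.S2984Core
import Cfsg.Agent.Lib.Helper47.Subn

/-!
S2986 package [SB] (helper11): the abstract facts `SBlk p E` on a subnormal `B(T)`-block of a
group of characteristic `p`.
-/

set_option autoImplicit false

namespace Cfsg.Agent.Lib.Helper11.SnB

open Cfsg Cfsg.Agent.Lib.Helper41.SnB
open scoped commutatorElement

universe u

variable {G : Type u} [Group G]

/-- A normal subgroup `N ≤ ker ρ` of a finite group with `|E/N| = |range ρ|` is `ker ρ`. -/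
theorem ker_eq_of_card {E H : Type*} [Group E] [Finite E] [Group H] (ρ : E →* H)
    (N : Subgroup E) [N.Normal] (hc : Nat.card (E ⧸ N) = Nat.card ρ.range) (hN : N ≤ ρ.ker) :
    ρ.ker = N := by
  have h1 : Nat.card (E ⧸ ρ.ker) = Nat.card ρ.range :=
    Nat.card_congr (QuotientGroup.quotientKerEquivRange ρ).toEquiv
  have h2 := Subgroup.card_eq_card_quotient_mul_card_subgroup N
  have h3 := Subgroup.card_eq_card_quotient_mul_card_subgroup ρ.ker
  rw [hc] at h2
  rw [h1] at h3
  haveI : Finite ρ.range := Finite.of_surjective ρ.rangeRestrict ρ.rangeRestrict_surjective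
  have hpos : 0 < Nat.card ρ.range := Nat.card_pos
  have h4 : Nat.card N = Nat.card ρ.ker := Nat.eq_of_mul_eq_mul_left hpos (h2.symm.trans h3)
  exact (Subgroup.eq_of_le_of_card_ge hN (le_of_eq h4.symm)).symm

/-- Faithfulness of a natural `SL₂`-section modulo a normal subgroup `N` of the right index. -/
theorem sl2_section_faith {F : Type} [Field F]
    {R : Subgroup (Matrix.SpecialLinearGroup (Fin 2) F)} {E U U₀ : Subgroup G} [Finite ↥E]
    (h : ActsAsSL2OnSection F R E U U₀) (N : Subgroup ↥E) [N.Normal]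
    (hc : Nat.card (↥E ⧸ N) = Nat.card ↥R)
    (hN : ∀ q ∈ N, ∀ u ∈ U, (q : G) * u * (q : G)⁻¹ * u⁻¹ ∈ U₀) :
    ∀ e : ↥E, (∀ u ∈ U, (e : G) * u * (e : G)⁻¹ * u⁻¹ ∈ U₀) → e ∈ N := by
  obtain ⟨-, -, ρ, ψ, hρ, hsurj, hψk, hact⟩ := h
  have key : ∀ e : ↥E, (∀ u ∈ U, (e : G) * u * (e : G)⁻¹ * u⁻¹ ∈ U₀) → ρ e = 1 := by
    intro e he
    have h1 : ∀ v : Fin 2 → F,
        ((ρ e : Matrix.SpecialLinearGroup (Fin 2) F) : Matrix (Fin 2) (Fin 2) F).mulVec v = v := by
      intro v
      obtain ⟨u, hu⟩ := hsurj (Multiplicative.ofAdd v)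
      obtain ⟨w, hw, hw'⟩ := hact e u
      have h2 : ψ (w * u⁻¹) = 1 := by
        rw [hψk]
        have : ((w * u⁻¹ : ↥U) : G) = (e : G) * u * (e : G)⁻¹ * (u : G)⁻¹ := by
          rw [Subgroup.coe_mul, Subgroup.coe_inv, hw]
        rw [this]
        exact he u u.2
      have h3 : ψ w = ψ u := by
        rw [map_mul, map_inv] at h2
        exact mul_inv_eq_one.mp h2
      rw [h3, hu] at hw'
      exact hw'.symm
    apply Subtype.ext
    ext i j
    have h2 := congrFun (h1 (Pi.single j 1)) i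
    rw [Matrix.mulVec_single_one] at h2
    simp only [Matrix.SpecialLinearGroup.coe_one, Matrix.one_apply, Pi.single_apply] at h2 ⊢
    exact h2
  have hker : ρ.ker = N :=
    ker_eq_of_card ρ N (by rw [hc, hρ]) (fun q hq => key q (hN q hq))
  intro e he
  rw [← hker]
  exact key e he

/-- Faithfulness of an even-weight permutation section modulo a normal subgroup `N` of the right
index. -/
theorem alt_section_faith {n : ℕ} (hn : 3 ≤ n) {R : Subgroup (Equiv.Perm (Fin n))}
    {E U U₀ : Subgroup G} [Finite ↥E]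
    (h : ActsAsOddPermModuleOnSection n R E U U₀) (N : Subgroup ↥E) [N.Normal]
    (hc : Nat.card (↥E ⧸ N) = Nat.card ↥R)
    (hN : ∀ q ∈ N, ∀ u ∈ U, (q : G) * u * (q : G)⁻¹ * u⁻¹ ∈ U₀) :
    ∀ e : ↥E, (∀ u ∈ U, (e : G) * u * (e : G)⁻¹ * u⁻¹ ∈ U₀) → e ∈ N := by
  obtain ⟨-, -, ρ, ψ, hρ, hev, hsurj, hψk, hact⟩ := h
  have key : ∀ e : ↥E, (∀ u ∈ U, (e : G) * u * (e : G)⁻¹ * u⁻¹ ∈ U₀) → ρ e = 1 := by
    intro e he
    have h1 : ∀ v : Fin n → ZMod 2, ∑ i, v i = 0 → ∀ i, v i = v ((ρ e)⁻¹ i) := by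
      intro v hv i
      obtain ⟨u, hu⟩ := hsurj v hv
      obtain ⟨w, hw, hw'⟩ := hact e u
      have h2 : ψ (w * u⁻¹) = 1 := by
        rw [hψk]
        have : ((w * u⁻¹ : ↥U) : G) = (e : G) * u * (e : G)⁻¹ * (u : G)⁻¹ := by
          rw [Subgroup.coe_mul, Subgroup.coe_inv, hw]
        rw [this]
        exact he u u.2
      have h3 : ψ w = ψ u := by
        rw [map_mul, map_inv] at h2
        exact mul_inv_eq_one.mp h2
      have h4 := hw' i
      rw [h3, hu] at h4
      exact h4
    have h2 : (ρ e)⁻¹ = 1 := by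
      ext i
      by_contra hne
      have hne' : (ρ e)⁻¹ i ≠ i := fun h => hne (by rw [h]; rfl)
      obtain ⟨j, -, hj⟩ := Finset.exists_mem_notMem_of_card_lt_card
        (s := ({i, (ρ e)⁻¹ i} : Finset (Fin n))) (t := Finset.univ) (by
          have := Finset.card_le_two (a := i) (b := (ρ e)⁻¹ i)
          rw [Finset.card_univ, Fintype.card_fin]
          omega)
      rw [Finset.mem_insert, Finset.mem_singleton, not_or] at hj
      have hsum : ∑ k, (Pi.single i (1 : ZMod 2) + Pi.single j (1 : ZMod 2) : Fin n → ZMod 2) k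
          = 0 := by
        simp only [Pi.add_apply, Finset.sum_add_distrib, Finset.sum_pi_single', Finset.mem_univ,
          if_true]
        decide
      have h3 := h1 _ hsum i
      simp only [Pi.add_apply, Pi.single_apply, if_true, if_neg hne', if_neg (Ne.symm hj.1),
        if_neg (Ne.symm hj.2), if_neg (fun h : (ρ e)⁻¹ i = j => hj.2 h.symm)] at h3
      revert h3
      decide
    exact inv_eq_one.mp h2
  have hker : ρ.ker = N :=
    ker_eq_of_card ρ N (by rw [hc, hρ]) (fun q hq => key q (hN q hq))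
  intro e he
  rw [← hker]
  exact key e he

/-- A block with trivial `E / O_p(E)` does not exist. -/
theorem block_quot_nontrivial [Finite G] {p : ℕ} [Fact p.Prime] {T E : Subgroup G}
    (hE : IsBaumannBlock p T E) : ¬ Subsingleton (↥E ⧸ pCore p ↥E) := by
  intro hss
  obtain ⟨hres, -, -, hEZ, -⟩ := hE
  have htop : pCore p ↥E = ⊤ := QuotientGroup.subgroup_eq_top_of_subsingleton _ hss
  have hEp : IsPGroup p (pCore p ↥E) := Cfsg.Agent.Lib.Helper47.pCore_isPGroup p ↥E
  have hbot : pResidual p ↥E = ⊥ := by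
    unfold pResidual
    rw [Subgroup.closure_eq_bot_iff]
    intro g hg
    have hg' : g ∈ pCore p ↥E := by rw [htop]; trivial
    exact Cfsg.Agent.Lib.Helper47.eq_one_of_isPGroup_of_coprime hEp hg' hg
  have hE0 : E = ⊥ := by
    rw [← hres]
    unfold pResidualOf
    rw [hbot, Subgroup.map_bot]
  apply hEZ
  rw [hE0, Subgroup.commutator_bot_left]

/-- [SB] -/
theorem pkgSB : PkgSB.{u} := by
  intro G _ _ p _ hG T E hE hsub
  have hEblock := hE
  obtain ⟨hres, hEB, hQE, hEZ, hstruct⟩ := hE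
  have hPp : IsPGroup p (pCore p G) := Cfsg.Agent.Lib.Helper47.pCore_isPGroup p G
  have hNP : ∀ g : G, g ∈ Subgroup.normalizer ((pCore p G : Subgroup G) : Set G) := by
    intro g
    have : Subgroup.normalizer ((pCore p G : Subgroup G) : Set G) = ⊤ :=
      Subgroup.normalizer_eq_top _
    rw [this]; trivial
  have hPE : pCore p G ≤ Subgroup.normalizer (E : Set G) :=
    Cfsg.Agent.Lib.Helper85.BB.block_le_normalizer T hEblock hPp (fun g _ => hNP g)
      (fun g _ => hNP g)
  have hcore := Cfsg.Agent.Lib.Helper85.BB.s2984_core hG T E hEblock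
  have hWc : omegaOneCenter p (pCoreOf p E) ≤
      Subgroup.centralizer ((pCoreOf p E : Subgroup G) : Set G) :=
    Cfsg.Agent.Lib.Helper85.BB.omegaOneCenter_le_centralizer p _
  have hQW : ∀ q ∈ pCore p ↥E, ∀ u ∈ omegaOneCenter p (pCoreOf p E),
      (q : G) * u * (q : G)⁻¹ * u⁻¹ ∈
        omegaOneCenter p (pCoreOf p E) ⊓ Subgroup.centralizer (E : Set G) := by
    intro q hq u hu
    have hq' : (q : G) ∈ pCoreOf p E := ⟨q, hq, rfl⟩
    have h1 := Subgroup.mem_centralizer_iff.mp (hWc hu) q hq'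
    have h2 : (q : G) * u * (q : G)⁻¹ * u⁻¹ = 1 := by
      rw [h1]; group
    rw [h2]
    exact Subgroup.one_mem _
  have hEP : E ⊓ pCore p G ≤ pCoreOf p E := by
    apply Cfsg.Agent.Lib.Helper47.le_pCoreOf_of_le_normalizer (hPp.to_le inf_le_right) inf_le_left
    intro e he
    exact Cfsg.Agent.Lib.Helper85.BB.mem_normalizer_inf (Subgroup.le_normalizer he) (hNP e)
  have hnontriv := block_quot_nontrivial hEblock
  have hrest : (¬ Wb p E ≤ Zb p E) ∧
      (∀ X : Subgroup G, X ≤ Wb p E → Nz E X → ¬ X ≤ Zb p E →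
        ∀ u ∈ Wb p E, ∃ x ∈ X, ∃ z ∈ Zb p E, u = x * z) ∧
      (∀ e ∈ E, (∀ w ∈ Wb p E, e * w * e⁻¹ * w⁻¹ ∈ Zb p E) → e ∈ Qb p E) ∧
      (Qb p E = Wb p E ∨ ExcData p E) := by
    rcases hstruct with ⟨F, _, _, n, hcard, ⟨iso⟩, hact, halt⟩ | ⟨hp2, m, ⟨iso⟩, hact, hQW'⟩
    · have hc : Nat.card (↥E ⧸ pCore p ↥E) =
          Nat.card ↥(commutator (Matrix.SpecialLinearGroup (Fin 2) F)) :=
        Nat.card_congr iso.toEquiv
      refine ⟨?_, ?_, ?_, ?_⟩
      · obtain ⟨-, -, ρ, ψ, hρ, hsurj, hψk, -⟩ := id hact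
        obtain ⟨u, hu⟩ := hsurj (Multiplicative.ofAdd (Pi.single 0 1))
        intro hle
        have h1 : ψ u = 1 := (hψk u).mpr (hle u.2)
        rw [h1] at hu
        have h2 := congrFun (congrArg Multiplicative.toAdd hu) 0
        simp at h2
      · intro X hXW hNz hX
        exact Cfsg.Agent.Lib.Helper85.BB.sl2_section_cover hact hXW hNz hX
      · intro e he hew
        have h1 := sl2_section_faith hact (pCore p ↥E) hc hQW ⟨e, he⟩ hew
        exact ⟨⟨e, he⟩, h1, rfl⟩
      · rcases halt with h | ⟨hp3, hact2, hQQ, -, hZE, hcardZ, -⟩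
        · exact Or.inl h
        · right
          refine ⟨hp3, hQQ, hZE, ?_, ?_, ?_⟩
          · intro h0
            have h0' : omegaOneCenter p (pCoreOf p E) ⊓ Subgroup.centralizer (E : Set G) = ⊥ := h0
            rw [hZE, h0', Subgroup.card_bot] at hcardZ
            have hn : n = 0 := by
              by_contra hn
              have : 1 < 3 ^ n := Nat.one_lt_pow hn (by norm_num)
              omega
            rw [hn, pow_zero] at hcard
            have := Fintype.one_lt_card (α := F)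
            omega
          · intro X hXQ hNz hX
            exact Cfsg.Agent.Lib.Helper85.BB.sl2_section_cover hact2 hXQ hNz hX
          · intro e he heu
            have hN2 : ∀ q ∈ pCore p ↥E, ∀ u ∈ pCoreOf p E,
                (q : G) * u * (q : G)⁻¹ * u⁻¹ ∈ omegaOneCenter p (pCoreOf p E) := by
              intro q hq u hu
              have hq' : (q : G) ∈ pCoreOf p E := ⟨q, hq, rfl⟩
              have h1 : ⁅(q : G), u⁆ ∈ ⁅pCoreOf p E, pCoreOf p E⁆ :=
                Subgroup.commutator_mem_commutator hq' hu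
              rw [hQQ, commutatorElement_def] at h1
              exact (Subgroup.mem_inf.mp h1).1
            have h1 := sl2_section_faith hact2 (pCore p ↥E) hc hN2 ⟨e, he⟩ heu
            exact ⟨⟨e, he⟩, h1, rfl⟩
    · have hm : m ≠ 0 := by
        rintro rfl
        apply hnontriv
        haveI : Subsingleton ↥(alternatingGroup (Fin (2 * 0 + 1))) := by
          haveI : Subsingleton (Equiv.Perm (Fin (2 * 0 + 1))) := by
            show Subsingleton (Equiv.Perm (Fin 1))
            infer_instance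
          infer_instance
        exact iso.toEquiv.subsingleton
      have hn3 : 3 ≤ 2 * m + 1 := by omega
      have hc : Nat.card (↥E ⧸ pCore p ↥E) = Nat.card ↥(alternatingGroup (Fin (2 * m + 1))) :=
        Nat.card_congr iso.toEquiv
      refine ⟨?_, ?_, ?_, Or.inl hQW'⟩
      · obtain ⟨-, -, ρ, ψ, hρ, hev, hsurj, hψk, -⟩ := id hact
        have h01 : (⟨0, by omega⟩ : Fin (2 * m + 1)) ≠ ⟨1, by omega⟩ := by
          intro h; simp [Fin.ext_iff] at h
        obtain ⟨u, hu⟩ := hsurj (Pi.single ⟨0, by omega⟩ 1 + Pi.single ⟨1, by omega⟩ 1) (by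
          simp only [Pi.add_apply, Finset.sum_add_distrib, Finset.sum_pi_single', Finset.mem_univ,
            if_true]
          decide)
        intro hle
        have h1 : ψ u = 1 := (hψk u).mpr (hle u.2)
        rw [h1] at hu
        have h2 := congrFun hu ⟨0, by omega⟩
        simp only [toAdd_one, Pi.zero_apply, Pi.add_apply, Pi.single_apply, if_true,
          if_neg h01] at h2
        revert h2
        decide
      · intro X hXW hNz hX
        exact Cfsg.Agent.Lib.Helper85.BB.alt_section_cover ⟨m, rfl⟩ hact hXW hNz hX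
      · intro e he hew
        have h1 := alt_section_faith hn3 hact (pCore p ↥E) hc hQW ⟨e, he⟩ hew
        exact ⟨⟨e, he⟩, h1, rfl⟩
  exact
    { res := hres
      QE := hQE
      QP := Cfsg.Agent.Lib.Helper47.pCoreOf_le_pCore_of_isSubnormal hsub
      PN := hPE
      EP := hEP
      OEP := hcore.1
      AV := hcore.2.1
      WZ := hrest.1
      coverW := hrest.2.1
      faithW := hrest.2.2.1
      alt := hrest.2.2.2 }

end Cfsg.Agent.Lib.Helper11.SnB
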