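import Mathlib
import Cfsg.Agent.Lib.Helper41.SnB.Defs
import Cfsg.Agent.Lib.Helper85.BB.S2984Core
import Cfsg.Agent.Lib.Helper47.Subn
import Cfsg.Agent.Lib.Helper22.Quasi
import Cfsg.Agent.Lib.Helper11.SnB.SB

/-!
S2986 package [TY] (helper11): a `B(T)`-block is of quasisimple type, of type `C₃` or of type
`Q₈`.
-/

set_option autoImplicit false

namespace Cfsg.Agent.Lib.Helper11.SnB

open Cfsg Cfsg.Agent.Lib.Helper41.SnB
open scoped commutatorElement

universe u

variable {G : Type u} [Group G]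

/-- Lifting an element of order `p` of `E / O_p(E)` to a `p`-element of `E` outside `O_p(E)`. -/
theorem lift_p_element {p : ℕ} [Fact p.Prime] {E : Subgroup G} {K : Type*} [Group K]
    (iso : ↥E ⧸ pCore p ↥E ≃* K) (g : K) (hg1 : g ≠ 1) (hgp : g ^ p = 1) :
    ∃ t ∈ E, t ∉ Qb p E ∧ ∃ k : ℕ, t ^ (p ^ k) = 1 := by
  obtain ⟨t', ht'⟩ := QuotientGroup.mk_surjective (iso.symm g)
  have h1 : t' ∉ pCore p ↥E := by
    intro h
    have h2 : (QuotientGroup.mk t' : ↥E ⧸ pCore p ↥E) = 1 := (QuotientGroup.eq_one_iff t').mpr h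
    rw [ht'] at h2
    exact hg1 (by simpa using h2)
  have h2 : t' ^ p ∈ pCore p ↥E := by
    rw [← QuotientGroup.eq_one_iff, QuotientGroup.mk_pow, ht', ← map_pow, hgp, map_one]
  obtain ⟨k, hk⟩ := (Cfsg.Agent.Lib.Helper47.pCore_isPGroup p ↥E) ⟨t' ^ p, h2⟩
  refine ⟨(t' : G), t'.2, ?_, k + 1, ?_⟩
  · rintro ⟨q, hq, hqt⟩
    have h3 : q = t' := Subtype.ext hqt
    exact h1 (h3 ▸ hq)
  · have h3 := congrArg (fun x : ↥(pCore p ↥E) => ((x : ↥E) : G)) hk
    simp only [Subgroup.coe_pow, Subgroup.coe_one] at h3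
    rw [pow_succ', pow_mul]
    exact h3

/-- A nonabelian simple group is quasisimple. -/
theorem isQuasisimple_of_simple {K : Type*} [Group K] [IsSimpleGroup K]
    (hna : ∃ a b : K, a * b ≠ b * a) : IsQuasisimple K := by
  obtain ⟨a, b, hab⟩ := hna
  constructor
  · rw [Group.isPerfect_def]
    rcases (inferInstance : (commutator K).Normal).eq_bot_or_eq_top with h | h
    · exfalso
      have h1 : ⁅a, b⁆ ∈ commutator K :=
        Subgroup.commutator_mem_commutator (Subgroup.mem_top a) (Subgroup.mem_top b)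
      rw [h, Subgroup.mem_bot, commutatorElement_eq_one_iff_mul_comm] at h1
      exact hab h1
    · exact h
  · have hc : Subgroup.center K = ⊥ := by
      rcases (inferInstance : (Subgroup.center K).Normal).eq_bot_or_eq_top with h | h
      · exact h
      · exfalso
        have h1 : b ∈ Subgroup.center K := by rw [h]; trivial
        exact hab (Subgroup.mem_center_iff.mp h1 a)
    exact ((QuotientGroup.quotientMulEquivOfEq hc).trans QuotientGroup.quotientBot).isSimpleGroup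

/-- A noncommutative group of order 6 has derived group of order 3. -/
theorem card_commutator_of_card_six {K : Type*} [Group K] (h6 : Nat.card K = 6)
    (hna : ∃ a b : K, a * b ≠ b * a) : Nat.card ↥(commutator K) = 3 := by
  haveI : Finite K := Nat.finite_of_card_ne_zero (by rw [h6]; norm_num)
  haveI : Fact (Nat.Prime 3) := ⟨Nat.prime_three⟩
  haveI : Fact (Nat.Prime 2) := ⟨Nat.prime_two⟩
  obtain ⟨s, hs⟩ := exists_prime_orderOf_dvd_card' (G := K) 3 (by rw [h6]; norm_num)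
  have hC : Nat.card ↥(Subgroup.zpowers s) = 3 := by rw [Nat.card_zpowers, hs]
  have hidx : (Subgroup.zpowers s).index = 2 := by
    have h1 := (Subgroup.zpowers s).card_mul_index
    rw [hC, h6] at h1
    omega
  haveI hn : (Subgroup.zpowers s).Normal := Subgroup.normal_of_index_eq_two hidx
  have hq : Nat.card (K ⧸ Subgroup.zpowers s) = 2 := hidx
  haveI : IsCyclic (K ⧸ Subgroup.zpowers s) := isCyclic_of_prime_card hq
  have hle : commutator K ≤ Subgroup.zpowers s := by
    apply Subgroup.Normal.quotient_commutative_iff_commutator_le.mp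
    exact ⟨⟨fun x y => IsCyclic.commGroup.mul_comm x y⟩⟩
  have hdvd : Nat.card ↥(commutator K) ∣ 3 := by
    rw [← hC]
    exact Subgroup.card_dvd_of_le hle
  rcases (Nat.dvd_prime Nat.prime_three).mp hdvd with h | h
  · exfalso
    obtain ⟨a, b, hab⟩ := hna
    have h1 : ⁅a, b⁆ ∈ commutator K :=
      Subgroup.commutator_mem_commutator (Subgroup.mem_top a) (Subgroup.mem_top b)
    rw [Subgroup.card_eq_one.mp h, Subgroup.mem_bot, commutatorElement_eq_one_iff_mul_comm] at h1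
    exact hab h1
  · exact h

section SL2

variable {F : Type} [Field F] [Fintype F]

theorem sl2_commutator_eq_top (hF : 4 ≤ Fintype.card F) :
    commutator (Matrix.SpecialLinearGroup (Fin 2) F) = ⊤ := by
  have hF' : 4 ≤ Nat.card F := by rw [Nat.card_eq_fintype_card]; exact hF
  obtain ⟨x, hx⟩ : IsCyclic Fˣ := by infer_instance
  have hasq : ((x : Fˣ) : F) ^ 2 ≠ 1 := by
    intro h
    grw [Nat.card_eq_card_units_add_one F, ← orderOf_eq_card_of_forall_mem_zpowers hx,
      orderOf_le_of_pow_eq_one zero_lt_two (Units.ext <| by simpa using h)] at hF'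
    omega
  exact Matrix.SL2.commutator_eq_top (Units.ne_zero x) hasq

theorem sl2_isQuasisimple (hF : 4 ≤ Fintype.card F) :
    IsQuasisimple (Matrix.SpecialLinearGroup (Fin 2) F) := by
  refine ⟨⟨sl2_commutator_eq_top hF⟩, ?_⟩
  have hF' : 4 ≤ Nat.card F := by rw [Nat.card_eq_fintype_card]; exact hF
  exact Matrix.ProjectiveSpecialLinearGroup.rank_two_simple hF'

/-- The upper transvection. -/
def tvU (F : Type) [Field F] : Matrix.SpecialLinearGroup (Fin 2) F :=
  ⟨!![1, 1; 0, 1], by simp [Matrix.det_fin_two]⟩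

/-- The lower transvection. -/
def tvL (F : Type) [Field F] : Matrix.SpecialLinearGroup (Fin 2) F :=
  ⟨!![1, 0; 1, 1], by simp [Matrix.det_fin_two]⟩

omit [Fintype F] in
theorem tvU_ne_one : tvU F ≠ 1 := by
  intro h
  have h1 := congrArg (fun g : Matrix.SpecialLinearGroup (Fin 2) F =>
    (g : Matrix (Fin 2) (Fin 2) F) 0 1) h
  simp [tvU] at h1

omit [Fintype F] in
theorem tvU_pow (k : ℕ) :
    ((tvU F ^ k : Matrix.SpecialLinearGroup (Fin 2) F) : Matrix (Fin 2) (Fin 2) F) =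
      !![1, (k : F); 0, 1] := by
  induction k with
  | zero =>
    ext i j
    fin_cases i <;> fin_cases j <;> simp
  | succ k ih =>
    rw [pow_succ, Matrix.SpecialLinearGroup.coe_mul, ih]
    ext i j
    fin_cases i <;> fin_cases j <;> simp [tvU, Matrix.mul_apply, Fin.sum_univ_two, add_comm]

theorem tvU_pow_p {p n : ℕ} (hcard : Fintype.card F = p ^ n) : tvU F ^ p = 1 := by
  have h0 : ((p : ℕ) : F) = 0 := by
    have h1 : ((Fintype.card F : ℕ) : F) = 0 := Nat.cast_card_eq_zero F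
    rw [hcard, Nat.cast_pow] at h1
    exact eq_zero_of_pow_eq_zero h1
  apply Subtype.ext
  rw [tvU_pow, h0]
  ext i j
  fin_cases i <;> fin_cases j <;> simp

omit [Fintype F] in
theorem tvU_tvL_ne : tvU F * tvL F ≠ tvL F * tvU F := by
  intro h
  have h1 : ((tvU F * tvL F : Matrix.SpecialLinearGroup (Fin 2) F) :
      Matrix (Fin 2) (Fin 2) F) 0 0 =
      ((tvL F * tvU F : Matrix.SpecialLinearGroup (Fin 2) F) : Matrix (Fin 2) (Fin 2) F) 0 0 := by
    rw [h]
  rw [Matrix.SpecialLinearGroup.coe_mul, Matrix.SpecialLinearGroup.coe_mul] at h1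
  simp [tvU, tvL, Matrix.mul_apply, Fin.sum_univ_two] at h1

theorem card_sl2_two (hF : Fintype.card F = 2) :
    Nat.card (Matrix.SpecialLinearGroup (Fin 2) F) = 6 := by
  classical
  have hGL : Nat.card (Matrix.GeneralLinearGroup (Fin 2) F) = 6 := by
    rw [Matrix.card_GL_field, hF]
    simp [Fin.prod_univ_two]
  rw [← hGL]
  apply Nat.card_eq_of_bijective Matrix.SpecialLinearGroup.toGL
  refine ⟨Matrix.SpecialLinearGroup.toGL_injective, ?_⟩
  intro g
  have hu : ∀ a : Fˣ, a = 1 := by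
    have h1 : Fintype.card Fˣ = 1 := by rw [Fintype.card_units, hF]
    intro a
    exact (Fintype.card_le_one_iff.mp h1.le) a 1
  have hdet : Matrix.det (g : Matrix (Fin 2) (Fin 2) F) = 1 := by
    have h2 := congrArg Units.val (hu (Matrix.GeneralLinearGroup.det g))
    simpa using h2
  refine ⟨⟨(g : Matrix (Fin 2) (Fin 2) F), hdet⟩, ?_⟩
  ext : 1
  rfl

theorem card_commutator_sl2_two (hF : Fintype.card F = 2) :
    Nat.card ↥(commutator (Matrix.SpecialLinearGroup (Fin 2) F)) = 3 :=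
  card_commutator_of_card_six (card_sl2_two hF) ⟨tvU F, tvL F, tvU_tvL_ne⟩

end SL2

/-- The norm-map lemma: an abelian group `Q` of exponent 2, the image of a normal subgroup `N`
of index 3 of `E`, with `[Q, E] = Q`, has no nontrivial element centralized by `E`. -/
theorem norm_map_lemma {E Q : Subgroup G} (N : Subgroup ↥E) [N.Normal]
    (hQ : Q = N.map E.subtype) (hc : Nat.card (↥E ⧸ N) = 3)
    (hab : ∀ a ∈ Q, ∀ b ∈ Q, a * b = b * a) (hsq : ∀ a ∈ Q, a ^ 2 = 1) (hQE : ⁅Q, E⁆ = Q) :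
    Q ⊓ Subgroup.centralizer (E : Set G) = ⊥ := by
  have hnorm : ∀ e ∈ E, ∀ a ∈ Q, e * a * e⁻¹ ∈ Q := by
    intro e he a ha
    rw [hQ] at ha ⊢
    obtain ⟨a', ha', rfl⟩ := ha
    exact ⟨⟨e, he⟩ * a' * ⟨e, he⟩⁻¹, ‹N.Normal›.conj_mem a' ha' ⟨e, he⟩, rfl⟩
  obtain ⟨x', hx'⟩ : ∃ x' : ↥E, x' ∉ N := by
    by_contra hall
    push_neg at hall
    have h1 : N = ⊤ := eq_top_iff.mpr (fun g _ => hall g)
    have h2 : N.index = 1 := by rw [h1]; exact Subgroup.index_top
    have h3 : N.index = 3 := hc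
    omega
  haveI : Fact (Nat.Prime 3) := ⟨Nat.prime_three⟩
  have hx1 : (QuotientGroup.mk x' : ↥E ⧸ N) ≠ 1 :=
    fun h => hx' ((QuotientGroup.eq_one_iff x').mp h)
  obtain ⟨x, hxdef⟩ : ∃ x : G, (x' : G) = x := ⟨_, rfl⟩
  have hxE : x ∈ E := hxdef ▸ x'.2
  have hgen : ∀ e ∈ E, ∃ k : ℕ, (x ^ k)⁻¹ * e ∈ Q := by
    intro e he
    obtain ⟨k, hk⟩ :=
      mem_powers_of_prime_card hc hx1 (g' := (QuotientGroup.mk ⟨e, he⟩ : ↥E ⧸ N))
    refine ⟨k, ?_⟩
    have hk' : (QuotientGroup.mk x' : ↥E ⧸ N) ^ k = QuotientGroup.mk ⟨e, he⟩ := hk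
    have h1 : (x' ^ k)⁻¹ * ⟨e, he⟩ ∈ N := by
      rw [← QuotientGroup.eq_one_iff, QuotientGroup.mk_mul, QuotientGroup.mk_inv,
        QuotientGroup.mk_pow, hk', inv_mul_cancel]
    rw [hQ]
    exact ⟨_, h1, by simp [hxdef]⟩
  have hx3Q : x ^ 3 ∈ Q := by
    have hx3 : x' ^ 3 ∈ N := by
      rw [← QuotientGroup.eq_one_iff, QuotientGroup.mk_pow, ← hc]
      exact pow_card_eq_one'
    rw [hQ]
    exact ⟨x' ^ 3, hx3, by simp [hxdef]⟩
  clear hx1 hx' hxdef x'
  have hcomm : ∀ a b : ↥Q, a * b = b * a := fun a b => Subtype.ext (hab a a.2 b b.2)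
  have hsix : ∀ a b a1 b1 a2 b2 : ↥Q,
      a * b * (a1 * b1) * (a2 * b2) = a * a1 * a2 * (b * b1 * b2) := by
    intro a b a1 b1 a2 b2
    calc a * b * (a1 * b1) * (a2 * b2) = a * (b * a1) * b1 * a2 * b2 := by
          simp only [mul_assoc]
      _ = a * (a1 * b) * b1 * a2 * b2 := by rw [hcomm b a1]
      _ = a * a1 * ((b * b1) * a2) * b2 := by simp only [mul_assoc]
      _ = a * a1 * (a2 * (b * b1)) * b2 := by rw [hcomm (b * b1) a2]
      _ = a * a1 * a2 * (b * b1 * b2) := by simp only [mul_assoc]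
  let c : ↥Q →* ↥Q :=
    { toFun := fun u => ⟨x * u * x⁻¹, hnorm _ hxE u u.2⟩
      map_one' := by ext; simp
      map_mul' := by intro a b; ext; simp }
  have hcdef : ∀ u : ↥Q, ((c u : ↥Q) : G) = x * u * x⁻¹ := fun u => rfl
  have hc3 : ∀ u : ↥Q, c (c (c u)) = u := by
    intro u
    apply Subtype.ext
    rw [hcdef, hcdef, hcdef]
    have h1 : x ^ 3 * u = u * x ^ 3 := hab _ hx3Q u u.2
    have h2 : ∀ y v : G, y * (y * (y * v * y⁻¹) * y⁻¹) * y⁻¹ = (y ^ 3 * v) * (y ^ 3)⁻¹ := by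
      intro y v
      simp only [pow_succ, pow_zero, one_mul, mul_inv_rev, mul_assoc]
    rw [h2, h1]
    group
  let ν : ↥Q → ↥Q := fun u => u * c u * c (c u)
  have hνdef : ∀ u : ↥Q, ν u = u * c u * c (c u) := fun u => rfl
  have hνmul : ∀ a b : ↥Q, ν (a * b) = ν a * ν b := by
    intro a b
    rw [hνdef, hνdef, hνdef, map_mul, map_mul]
    exact hsix _ _ _ _ _ _
  let νh : ↥Q →* ↥Q := MonoidHom.mk' ν hνmul
  have hνh : ∀ u : ↥Q, νh u = ν u := fun u => rfl
  have hνc : ∀ u : ↥Q, ν (c u) = ν u := by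
    intro u
    rw [hνdef, hνdef, hc3, hcomm (c u * c (c u)) u, mul_assoc]
  have hνk : ∀ (k : ℕ) (u : ↥Q) (h : x ^ k * u * (x ^ k)⁻¹ ∈ Q),
      ν ⟨x ^ k * u * (x ^ k)⁻¹, h⟩ = ν u := by
    intro k
    induction k with
    | zero =>
      intro u h
      congr 1
      ext
      simp
    | succ k ih =>
      intro u h
      have h' : x ^ k * u * (x ^ k)⁻¹ ∈ Q := hnorm _ (E.pow_mem hxE k) u u.2
      have h1 : (⟨x ^ (k + 1) * u * (x ^ (k + 1))⁻¹, h⟩ : ↥Q) =
          c ⟨x ^ k * u * (x ^ k)⁻¹, h'⟩ := by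
        apply Subtype.ext
        show x ^ (k + 1) * (u : G) * (x ^ (k + 1))⁻¹ = x * (x ^ k * u * (x ^ k)⁻¹) * x⁻¹
        simp only [pow_succ', mul_inv_rev, mul_assoc]
      rw [h1, hνc, ih u h']
  have hkill : ∀ a : ↥Q, ∀ e ∈ E, ∀ (h : ⁅(a : G), e⁆ ∈ Q), νh ⟨⁅(a : G), e⁆, h⟩ = 1 := by
    intro a e he h
    obtain ⟨k, hq⟩ := hgen e he
    have hconj : e * a * e⁻¹ = x ^ k * a * (x ^ k)⁻¹ := by
      have h1 := hab _ hq a a.2
      calc e * a * e⁻¹ = x ^ k * (((x ^ k)⁻¹ * e) * a) * e⁻¹ := by group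
        _ = x ^ k * (a * ((x ^ k)⁻¹ * e)) * e⁻¹ := by rw [h1]
        _ = x ^ k * a * (x ^ k)⁻¹ := by group
    have hmem : x ^ k * a * (x ^ k)⁻¹ ∈ Q := hnorm _ (E.pow_mem hxE k) a a.2
    have heq : (⟨⁅(a : G), e⁆, h⟩ : ↥Q) = a * (⟨x ^ k * a * (x ^ k)⁻¹, hmem⟩)⁻¹ := by
      apply Subtype.ext
      rw [Subgroup.coe_mul, Subgroup.coe_inv]
      show ⁅(a : G), e⁆ = a * (x ^ k * a * (x ^ k)⁻¹)⁻¹
      rw [← hconj, commutatorElement_def]
      group
    rw [heq, map_mul, map_inv, hνh, hνh, hνk k a hmem, mul_inv_cancel]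
  have hν1 : ∀ u : ↥Q, ν u = 1 := by
    have hle : ⁅Q, E⁆ ≤ (νh.ker).map Q.subtype := by
      rw [Subgroup.commutator_le]
      intro a ha e he
      have h : ⁅a, e⁆ ∈ Q := by
        rw [← hQE]
        exact Subgroup.commutator_mem_commutator ha he
      exact ⟨⟨⁅a, e⁆, h⟩, hkill ⟨a, ha⟩ e he h, rfl⟩
    intro u
    have hu : (u : G) ∈ (νh.ker).map Q.subtype := hle (by rw [hQE]; exact u.2)
    obtain ⟨v, hv, hvu⟩ := hu
    have h1 : v = u := Subtype.ext hvu
    rw [← h1, ← hνh]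
    exact hv
  rw [eq_bot_iff]
  intro u hu
  obtain ⟨huQ, huC⟩ := Subgroup.mem_inf.mp hu
  have hxu : x * u = u * x := Subgroup.mem_centralizer_iff.mp huC _ hxE
  have hcu : c ⟨u, huQ⟩ = ⟨u, huQ⟩ := by
    apply Subtype.ext
    rw [hcdef]
    show x * u * x⁻¹ = u
    rw [hxu]
    group
  have h1 := hν1 ⟨u, huQ⟩
  rw [hνdef, hcu, hcu] at h1
  have h2 : u * u * u = 1 := congrArg Subtype.val h1
  have h3 := hsq u huQ
  rw [Subgroup.mem_bot]
  calc u = u * u * u * (u ^ 2)⁻¹ := by group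
    _ = 1 := by rw [h2, h3]; simp

/-- `C_W(E) = 1` for a block with `E / O_2(E)` of order 3 and `O_2(E) = W`. -/
theorem c3_Z_bot {p : ℕ} {E : Subgroup G} (hp : p = 2)
    (hc : Nat.card (↥E ⧸ pCore p ↥E) = 3)
    (hQW : pCoreOf p E = omegaOneCenter p (pCoreOf p E))
    (hQE : ⁅pCoreOf p E, E⁆ = pCoreOf p E) :
    omegaOneCenter p (pCoreOf p E) ⊓ Subgroup.centralizer (E : Set G) = ⊥ := by
  have hab : ∀ a ∈ pCoreOf p E, ∀ b ∈ pCoreOf p E, a * b = b * a := by
    intro a ha b hb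
    have ha' : a ∈ omegaOneCenter p (pCoreOf p E) := by rw [← hQW]; exact ha
    exact (Subgroup.mem_centralizer_iff.mp
      (Cfsg.Agent.Lib.Helper85.BB.omegaOneCenter_le_centralizer p _ ha') b hb).symm
  have hsq : ∀ a ∈ pCoreOf p E, a ^ 2 = 1 := by
    intro a ha
    have h1 := Cfsg.Agent.Lib.Helper85.BB.omegaOneCenter_pow p (pCoreOf p E) a
      (by rw [← hQW]; exact ha)
    rwa [hp] at h1
  have h := norm_map_lemma (pCore p ↥E) rfl hc hab hsq hQE
  rw [eq_bot_iff, ← h]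
  exact inf_le_inf_right _ (Cfsg.Agent.Lib.Helper85.BB.omegaOneCenter_le p _)

/-- A natural `SL₂(2)`-section with trivial bottom has order 4. -/
theorem card_section_linear {F : Type} [Field F] [Fintype F] (hF : Fintype.card F = 2)
    {R : Subgroup (Matrix.SpecialLinearGroup (Fin 2) F)} {E U U₀ : Subgroup G}
    (h : ActsAsSL2OnSection F R E U U₀) (h0 : U₀ = ⊥) : Nat.card ↥U = 4 := by
  obtain ⟨-, -, ρ, ψ, -, hsurj, hψk, -⟩ := h
  have hinj : Function.Injective ψ := by
    rw [injective_iff_map_eq_one]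
    intro u hu
    have h1 := (hψk u).mp hu
    rw [h0, Subgroup.mem_bot] at h1
    exact Subtype.ext h1
  rw [Nat.card_congr (Equiv.ofBijective ψ ⟨hinj, hsurj⟩),
    Nat.card_congr (Multiplicative.toAdd : Multiplicative (Fin 2 → F) ≃ (Fin 2 → F)),
    Nat.card_fun, Nat.card_eq_fintype_card, Nat.card_eq_fintype_card, hF, Fintype.card_fin]
  norm_num

/-- An even-weight section of degree 3 with trivial bottom has order 4. -/
theorem card_section_alt {n : ℕ} (hn : n = 3) {R : Subgroup (Equiv.Perm (Fin n))}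
    {E U U₀ : Subgroup G} (h : ActsAsOddPermModuleOnSection n R E U U₀) (h0 : U₀ = ⊥) :
    Nat.card ↥U = 4 := by
  subst hn
  obtain ⟨-, -, ρ, ψ, -, hev, hsurj, hψk, -⟩ := h
  have hinj : Function.Injective ψ := by
    rw [injective_iff_map_eq_one]
    intro u hu
    have h1 := (hψk u).mp hu
    rw [h0, Subgroup.mem_bot] at h1
    exact Subtype.ext h1
  let f : ↥U → {v : Fin 3 → ZMod 2 // ∑ i, v i = 0} :=
    fun u => ⟨Multiplicative.toAdd (ψ u), hev u⟩
  have hf : Function.Bijective f := by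
    constructor
    · intro a b hab
      exact hinj (congrArg Subtype.val hab)
    · rintro ⟨v, hv⟩
      obtain ⟨u, hu⟩ := hsurj v hv
      exact ⟨u, Subtype.ext hu⟩
  rw [Nat.card_congr (Equiv.ofBijective f hf), Nat.card_eq_fintype_card]
  decide

/-- The alternating group of degree at least 5 is quasisimple and has an involution. -/
theorem alt_facts {n : ℕ} (hn : 5 ≤ n) :
    IsQuasisimple ↥(alternatingGroup (Fin n)) ∧
      ∃ g : ↥(alternatingGroup (Fin n)), g ≠ 1 ∧ g ^ 2 = 1 := by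
  have h01 : (⟨0, by omega⟩ : Fin n) ≠ ⟨1, by omega⟩ := by simp [Fin.ext_iff]
  have h23 : (⟨2, by omega⟩ : Fin n) ≠ ⟨3, by omega⟩ := by simp [Fin.ext_iff]
  have hmem : Equiv.swap (⟨0, by omega⟩ : Fin n) ⟨1, by omega⟩ *
      Equiv.swap (⟨2, by omega⟩ : Fin n) ⟨3, by omega⟩ ∈ alternatingGroup (Fin n) := by
    rw [Equiv.Perm.mem_alternatingGroup, Equiv.Perm.sign_mul, Equiv.Perm.sign_swap h01,
      Equiv.Perm.sign_swap h23]
    rfl
  have hg1 : (⟨_, hmem⟩ : ↥(alternatingGroup (Fin n))) ≠ 1 := by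
    intro h
    have h1 := congrArg (fun g : ↥(alternatingGroup (Fin n)) =>
      (g : Equiv.Perm (Fin n)) ⟨0, by omega⟩) h
    simp [Equiv.Perm.mul_apply, Equiv.swap_apply_def, Fin.ext_iff] at h1
  have hg2 : (⟨_, hmem⟩ : ↥(alternatingGroup (Fin n))) ^ 2 = 1 := by
    apply Subtype.ext
    have hcm : Commute (Equiv.swap (⟨0, by omega⟩ : Fin n) ⟨1, by omega⟩)
        (Equiv.swap (⟨2, by omega⟩ : Fin n) ⟨3, by omega⟩) :=
      (Equiv.Perm.disjoint_swap_swap (by simp [Fin.ext_iff])).commute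
    show (Equiv.swap (⟨0, by omega⟩ : Fin n) ⟨1, by omega⟩ *
      Equiv.swap (⟨2, by omega⟩ : Fin n) ⟨3, by omega⟩) ^ 2 = 1
    rw [hcm.mul_pow, pow_two, pow_two, Equiv.swap_mul_self, Equiv.swap_mul_self, one_mul]
  have hcard : 5 ≤ Nat.card (Fin n) := by simpa using hn
  haveI : IsSimpleGroup ↥(alternatingGroup (Fin n)) := alternatingGroup.isSimpleGroup hcard
  have hcen : Subgroup.center ↥(alternatingGroup (Fin n)) = ⊥ :=
    alternatingGroup.center_eq_bot (by omega)
  refine ⟨isQuasisimple_of_simple ?_, ⟨_, hmem⟩, hg1, hg2⟩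
  by_contra hall
  push_neg at hall
  apply hg1
  rw [← Subgroup.mem_bot, ← hcen, Subgroup.mem_center_iff]
  intro b
  exact hall b _

/-- [TY] -/
theorem pkgTY : PkgTY.{u} := by
  intro G _ _ p _ T E hE
  have hnontriv := block_quot_nontrivial hE
  obtain ⟨hres, hEB, hQE, hEZ, hstruct⟩ := id hE
  rcases hstruct with ⟨F, _, _, n, hcard, ⟨iso⟩, hact, halt⟩ | ⟨hp2, m, ⟨iso⟩, hact, hQW⟩
  · by_cases h4 : 4 ≤ Fintype.card F
    · left
      have hc := sl2_commutator_eq_top h4
      let iso2 : ↥E ⧸ pCore p ↥E ≃* Matrix.SpecialLinearGroup (Fin 2) F :=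
        iso.trans ((MulEquiv.subgroupCongr hc).trans Subgroup.topEquiv)
      exact ⟨Cfsg.Agent.Lib.Helper22.isQuasisimple_of_mulEquiv iso2 (sl2_isQuasisimple h4),
        lift_p_element iso2 (tvU F) tvU_ne_one (tvU_pow_p hcard)⟩
    · have hlt : Fintype.card F < 4 := not_le.mp h4
      have h1 : 1 < Fintype.card F := Fintype.one_lt_card
      have hp : p.Prime := Fact.out
      have hn : n ≠ 0 := by
        rintro rfl
        rw [pow_zero] at hcard
        omega
      have hdvd : p ∣ Fintype.card F := by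
        rw [hcard]
        exact dvd_pow_self p hn
      rcases (show Fintype.card F = 2 ∨ Fintype.card F = 3 by omega) with h2 | h3
      · right; left
        have hp2 : p = 2 := by
          rw [h2] at hdvd
          exact (Nat.prime_dvd_prime_iff_eq hp Nat.prime_two).mp hdvd
        have hQW : pCoreOf p E = omegaOneCenter p (pCoreOf p E) := by
          rcases halt with h | ⟨hp3, -⟩
          · exact h
          · omega
        have hc3 : Nat.card (↥E ⧸ pCore p ↥E) = 3 := by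
          rw [Nat.card_congr iso.toEquiv]
          exact card_commutator_sl2_two h2
        have hZ := c3_Z_bot hp2 hc3 hQW hQE
        refine ⟨hp2, hc3, hQW, ?_⟩
        have h4' := card_section_linear h2 hact hZ
        show Nat.card ↥(pCoreOf p E) = 4
        rw [hQW]
        exact h4'
      · right; right
        have hp3 : p = 3 := by
          rw [h3] at hdvd
          exact (Nat.prime_dvd_prime_iff_eq hp Nat.prime_three).mp hdvd
        refine ⟨hp3, F, _, _, h3, ⟨iso⟩, hact, ?_⟩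
        rcases halt with h | ⟨-, hact2, hQQ, -, hZE, hcardZ, hnq⟩
        · exact Or.inl h
        · right
          refine ⟨hact2, hQQ, hZE, ?_, hnq⟩
          rw [hcardZ]
          rw [hp3] at hcard
          rw [← hcard, h3]
  · have hm : m ≠ 0 := by
      rintro rfl
      apply hnontriv
      haveI : Subsingleton ↥(alternatingGroup (Fin (2 * 0 + 1))) := by
        haveI : Subsingleton (Equiv.Perm (Fin (2 * 0 + 1))) := by
          show Subsingleton (Equiv.Perm (Fin 1))
          infer_instance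
        infer_instance
      exact iso.toEquiv.subsingleton
    by_cases h2 : 2 ≤ m
    · left
      obtain ⟨hqs, g, hg1, hg2⟩ := alt_facts (n := 2 * m + 1) (by omega)
      refine ⟨Cfsg.Agent.Lib.Helper22.isQuasisimple_of_mulEquiv iso hqs, ?_⟩
      exact lift_p_element iso g hg1 (by rw [hp2]; exact hg2)
    · right; left
      have hm1 : m = 1 := by omega
      subst hm1
      have hc3 : Nat.card (↥E ⧸ pCore p ↥E) = 3 := by
        rw [Nat.card_congr iso.toEquiv, nat_card_alternatingGroup]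
        simp [Nat.factorial]
      have hZ := c3_Z_bot hp2 hc3 hQW hQE
      refine ⟨hp2, hc3, hQW, ?_⟩
      have h4' := card_section_alt (by norm_num) hact hZ
      show Nat.card ↥(pCoreOf p E) = 4
      rw [hQW]
      exact h4'

end Cfsg.Agent.Lib.Helper11.SnB
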